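import Mathlib
import Cfsg.Agent.Lib.Helper9.S3805.Defs
import Cfsg.Agent.Lib.Helper80.CharOps
import Cfsg.Agent.Lib.Helper81.Schur

set_option autoImplicit false

/-!
S3805, package CCount: the counting identity for an involution `z`.
-/

namespace Cfsg.Agent.Lib.Helper11.S3805

open Cfsg.Agent.Lib.Helper9.S3805

universe u

section

variable {G : Type u} [Group G] [Fintype G]

open Classical in
/-- the number of `x` with `x z x⁻¹ = u` -/
noncomputable def cnt (z u : G) : ℂ := ∑ x : G, if x * z * x⁻¹ = u then 1 else 0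

open Classical in
/-- the number of pairs `(x, y)` with `x z x⁻¹ * y z y⁻¹ = g` -/
noncomputable def phi (z g : G) : ℂ :=
  ∑ x : G, ∑ y : G, if x * z * x⁻¹ * (y * z * y⁻¹) = g then 1 else 0

theorem sum_sum_char (z : G) {χ : G → ℂ} (hχ : Cfsg.IsIrrCharacter G χ) :
    ∑ x : G, ∑ y : G, χ (x * z * x⁻¹ * (y * z * y⁻¹)) =
      (Nat.card G : ℂ) ^ 2 * (χ z) ^ 2 / χ 1 := by
  obtain ⟨n, ρ, hirr, rfl⟩ := hχ
  have hfin : (Module.finrank ℂ (Fin n → ℂ) : ℂ) = ρ.character 1 := by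
    rw [Cfsg.Agent.Lib.Helper80.char_one_fin]
    simp
  have hinner : ∀ x : G, ∑ y : G, ρ.character (x * z * x⁻¹ * (y * z * y⁻¹)) =
      (Nat.card G : ℂ) * ρ.character z * ρ.character z / ρ.character 1 := by
    intro x
    rw [Cfsg.Agent.Lib.Helper81.sum_char_mul_conj ρ (x * z * x⁻¹) z, hfin]
    have : ρ.character (x * z * x⁻¹) = ρ.character z := ρ.char_conj z x
    rw [this]
  simp_rw [hinner]
  rw [Finset.sum_const, Finset.card_univ, ← Nat.card_eq_fintype_card, nsmul_eq_mul]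
  ring

open Classical in
theorem cnt_mul (z u : G) (c : ℂ) :
    cnt z u * c = ∑ x : G, if x * z * x⁻¹ = u then c else 0 := by
  classical
  unfold cnt
  rw [Finset.sum_mul]
  refine Finset.sum_congr rfl (fun x _ => ?_)
  split_ifs <;> simp

theorem cnt_eq_card (z u g : G) (hg : g * z * g⁻¹ = u) :
    cnt z u = (Nat.card (Subgroup.centralizer ({z} : Set G)) : ℂ) := by
  classical
  unfold cnt
  have h1 : ∑ x : G, (if x * z * x⁻¹ = u then (1 : ℂ) else 0) =
      ∑ c : G, (if c * z * c⁻¹ = z then (1 : ℂ) else 0) := by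
    rw [← Fintype.sum_equiv (Equiv.mulLeft g)
      (fun c => if (g * c) * z * (g * c)⁻¹ = u then (1 : ℂ) else 0)
      (fun x => if x * z * x⁻¹ = u then (1 : ℂ) else 0) (fun c => rfl)]
    refine Finset.sum_congr rfl (fun c _ => ?_)
    have : (g * c) * z * (g * c)⁻¹ = u ↔ c * z * c⁻¹ = z := by
      rw [← hg]
      constructor
      · intro h
        have h2 : g⁻¹ * ((g * c) * z * (g * c)⁻¹) * g = g⁻¹ * (g * z * g⁻¹) * g := by rw [h]
        have e1 : g⁻¹ * ((g * c) * z * (g * c)⁻¹) * g = c * z * c⁻¹ := by group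
        have e2 : g⁻¹ * (g * z * g⁻¹) * g = z := by group
        rw [e1, e2] at h2
        exact h2
      · intro h
        have e1 : (g * c) * z * (g * c)⁻¹ = g * (c * z * c⁻¹) * g⁻¹ := by group
        rw [e1, h]
    simp only [this]
  rw [h1, Finset.sum_boole]
  congr 1
  have h2 : Nat.card ↥(Subgroup.centralizer ({z} : Set G)) = Nat.card {c : G // c * z * c⁻¹ = z} := by
    apply Nat.card_congr
    apply Equiv.subtypeEquivRight
    intro c
    rw [Subgroup.mem_centralizer_iff]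
    constructor
    · intro h
      have := h z rfl
      rw [mul_inv_eq_iff_eq_mul]
      exact this.symm
    · intro h y hy
      rw [Set.mem_singleton_iff] at hy
      subst hy
      rw [mul_inv_eq_iff_eq_mul] at h
      exact h.symm
  rw [h2, Nat.card_eq_fintype_card, Fintype.card_subtype]

/-- the TI argument: two involutions with product in `A1` lie in `N`. -/
theorem exists_of_mul_eq (hTIA : PkgTIA.{u}) (T : Subgroup G) (M : Model G T) (hLoc : Loc T)
    {u v : G} (hu : u * u = 1) (hv : v * v = 1) (p : P) (hp : inA1 p = true)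
    (huv : u * v = M.ψ p) : ∃ q : P, M.ψ q = u := by
  have huinv : u⁻¹ = u := inv_eq_of_mul_eq_one_right hu
  have hvinv : v⁻¹ = v := inv_eq_of_mul_eq_one_right hv
  have hconj : u * M.ψ p * u⁻¹ = M.ψ p⁻¹ := by
    rw [map_inv, ← huv, mul_inv_rev, hvinv, huinv]
    calc u * (u * v) * u = (u * u) * v * u := by group
      _ = v * u := by rw [hu, one_mul]
  have hmem := hTIA T M hLoc u p p⁻¹ hp hconj
  rw [← M.range_eq] at hmem
  obtain ⟨q, hq⟩ := hmem
  exact ⟨q, hq⟩

end

theorem pkgCCount : PkgCCount.{u} := by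
  intro hTIA hTISum G _ _ T M hLoc E F hEx z hz2 hz1 Z hZ
  classical
  have hG0 : (Nat.card G : ℂ) ≠ 0 := by
    have : Nat.card G ≠ 0 := Nat.card_pos.ne'
    exact_mod_cast this
  have hsq : ∀ x : G, (x * z * x⁻¹) * (x * z * x⁻¹) = 1 := by
    intro x
    calc (x * z * x⁻¹) * (x * z * x⁻¹) = x * (z * z) * x⁻¹ := by group
      _ = 1 := by rw [hz2]; group
  -- (S1)
  have hS1 : ∑ x : G, ∑ y : G, (1 + E (x * z * x⁻¹ * (y * z * y⁻¹))
      - F (x * z * x⁻¹ * (y * z * y⁻¹)))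
      = (Nat.card G : ℂ) ^ 2 * (1 + E z ^ 2 / E 1 - F z ^ 2 / F 1) := by
    simp_rw [Finset.sum_sub_distrib, Finset.sum_add_distrib]
    rw [sum_sum_char z hEx.irrE, sum_sum_char z hEx.irrF]
    simp only [Finset.sum_const, Finset.card_univ, nsmul_eq_mul, mul_one]
    rw [← Nat.card_eq_fintype_card]
    ring
  -- (S2)
  have hS2 : ∑ g : G, (1 + E g - F g) * phi z g = ∑ x : G, ∑ y : G,
      (1 + E (x * z * x⁻¹ * (y * z * y⁻¹)) - F (x * z * x⁻¹ * (y * z * y⁻¹))) := by
    unfold phi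
    simp_rw [Finset.mul_sum, mul_ite, mul_one, mul_zero]
    rw [Finset.sum_comm]
    refine Finset.sum_congr rfl (fun x _ => ?_)
    rw [Finset.sum_comm]
    refine Finset.sum_congr rfl (fun y _ => ?_)
    rw [Finset.sum_ite_eq]
    simp
  -- (S3)
  have hφ : ∀ g x : G, phi z (x * g * x⁻¹) = phi z g := by
    intro g c
    unfold phi
    rw [← Fintype.sum_equiv (Equiv.mulLeft c)
      (fun x' => ∑ y : G, if (c * x') * z * (c * x')⁻¹ * (y * z * y⁻¹) = c * g * c⁻¹
        then (1 : ℂ) else 0) _ (fun x' => rfl)]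
    refine Finset.sum_congr rfl (fun x' _ => ?_)
    rw [← Fintype.sum_equiv (Equiv.mulLeft c)
      (fun y' => if (c * x') * z * (c * x')⁻¹ * ((c * y') * z * (c * y')⁻¹) = c * g * c⁻¹
        then (1 : ℂ) else 0) _ (fun y' => rfl)]
    refine Finset.sum_congr rfl (fun y' _ => ?_)
    have : (c * x') * z * (c * x')⁻¹ * ((c * y') * z * (c * y')⁻¹) = c * g * c⁻¹ ↔
        x' * z * x'⁻¹ * (y' * z * y'⁻¹) = g := by
      have e : (c * x') * z * (c * x')⁻¹ * ((c * y') * z * (c * y')⁻¹)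
          = c * (x' * z * x'⁻¹ * (y' * z * y'⁻¹)) * c⁻¹ := by group
      rw [e]
      constructor
      · intro h
        have h2 : c⁻¹ * (c * (x' * z * x'⁻¹ * (y' * z * y'⁻¹)) * c⁻¹) * c
            = c⁻¹ * (c * g * c⁻¹) * c := by rw [h]
        have e1 : c⁻¹ * (c * (x' * z * x'⁻¹ * (y' * z * y'⁻¹)) * c⁻¹) * c
            = x' * z * x'⁻¹ * (y' * z * y'⁻¹) := by group
        have e2 : c⁻¹ * (c * g * c⁻¹) * c = g := by group
        rw [e1, e2] at h2
        exact h2
      · intro h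
        rw [h]
    simp only [this]
  have hTS := hTISum hTIA T M hLoc E F hEx (phi z) hφ
  -- (S4)
  have hS4 : ∀ p : P, inA1 p = true →
      phi z (M.ψ p) = ∑ p₁ : P, cnt z (M.ψ p₁) * cnt z (M.ψ (p₁⁻¹ * p)) := by
    intro p hp
    have hL : phi z (M.ψ p) = ∑ x : G, cnt z ((x * z * x⁻¹)⁻¹ * M.ψ p) := by
      unfold phi cnt
      refine Finset.sum_congr rfl (fun x _ => Finset.sum_congr rfl (fun y _ => ?_))
      have : x * z * x⁻¹ * (y * z * y⁻¹) = M.ψ p ↔
          y * z * y⁻¹ = (x * z * x⁻¹)⁻¹ * M.ψ p := by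
        constructor
        · intro h
          rw [← h]
          group
        · intro h
          rw [h]
          group
      simp only [this]
    have hR : ∑ p₁ : P, cnt z (M.ψ p₁) * cnt z (M.ψ (p₁⁻¹ * p)) =
        ∑ x : G, ∑ p₁ : P, if x * z * x⁻¹ = M.ψ p₁ then cnt z (M.ψ (p₁⁻¹ * p)) else 0 := by
      rw [Finset.sum_comm]
      refine Finset.sum_congr rfl (fun p₁ _ => ?_)
      exact cnt_mul z _ _
    rw [hL, hR]
    refine Finset.sum_congr rfl (fun x _ => ?_)
    by_cases hq : ∃ q : P, M.ψ q = x * z * x⁻¹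
    · obtain ⟨q, hq⟩ := hq
      rw [← hq]
      have : ∀ p₁ : P, (M.ψ q = M.ψ p₁) ↔ q = p₁ :=
        fun p₁ => ⟨fun h => M.inj h, fun h => by rw [h]⟩
      simp only [this, Finset.sum_ite_eq, Finset.mem_univ, if_true]
      rw [← map_inv, ← map_mul]
    · have hR0 : ∀ p₁ : P, ¬ (x * z * x⁻¹ = M.ψ p₁) := fun p₁ h => hq ⟨p₁, h.symm⟩
      simp only [hR0, if_false, Finset.sum_const_zero]
      unfold cnt
      apply Finset.sum_eq_zero
      intro y _
      rw [if_neg]
      intro hy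
      apply hq
      refine exists_of_mul_eq hTIA T M hLoc (hsq x) (hsq y) p hp ?_
      rw [hy]
      group
  -- (S5)
  have hS5 : ∀ q : P, cnt z (M.ψ q) =
      if (q * q = 1 ∧ q ≠ 1 ∧ Z q = true)
        then (Nat.card (Subgroup.centralizer ({z} : Set G)) : ℂ) else 0 := by
    intro q
    split_ifs with hc
    · obtain ⟨g, hg⟩ := (hZ q hc.1 hc.2.1).mp hc.2.2
      exact cnt_eq_card z _ g hg
    · unfold cnt
      apply Finset.sum_eq_zero
      intro x _
      rw [if_neg]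
      intro hx
      apply hc
      have hq2 : q * q = 1 := by
        apply M.inj
        rw [map_mul, map_one, ← hx]
        exact hsq x
      have hq1 : q ≠ 1 := by
        rintro rfl
        rw [map_one] at hx
        apply hz1
        have : z = x⁻¹ * (x * z * x⁻¹) * x := by group
        rw [this, hx]
        group
      exact ⟨hq2, hq1, (hZ q hq2 hq1).mpr ⟨x, hx⟩⟩
  -- (S6)
  have hsum : ∑ p : P, (if inA1 p = true then phi z (M.ψ p) else 0) =
      (Nat.card (Subgroup.centralizer ({z} : Set G)) : ℂ) ^ 2 * ((pairCount Z : ℕ) : ℂ) := by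
    have h1 : ∑ p : P, (if inA1 p = true then phi z (M.ψ p) else 0) =
        ∑ p : P, ∑ p₁ : P, (if inA1 p = true
          then cnt z (M.ψ p₁) * cnt z (M.ψ (p₁⁻¹ * p)) else 0) := by
      refine Finset.sum_congr rfl (fun p _ => ?_)
      split_ifs with hp
      · exact hS4 p hp
      · simp
    rw [h1, Finset.sum_comm]
    have h2 : ∀ p₁ : P, ∑ p : P, (if inA1 p = true
          then cnt z (M.ψ p₁) * cnt z (M.ψ (p₁⁻¹ * p)) else 0) =
        ∑ p₂ : P, (if inA1 (p₁ * p₂) = true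
          then cnt z (M.ψ p₁) * cnt z (M.ψ p₂) else 0) := by
      intro p₁
      rw [← Fintype.sum_equiv (Equiv.mulLeft p₁)
        (fun p₂ => if inA1 (p₁ * p₂) = true
          then cnt z (M.ψ p₁) * cnt z (M.ψ (p₁⁻¹ * (p₁ * p₂))) else 0) _ (fun p₂ => rfl)]
      refine Finset.sum_congr rfl (fun p₂ _ => ?_)
      rw [inv_mul_cancel_left]
    simp_rw [h2, hS5]
    rw [← Finset.sum_product', Finset.univ_product_univ]
    unfold pairCount
    rw [Finset.card_filter]
    push_cast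
    rw [Finset.mul_sum]
    refine Finset.sum_congr rfl (fun pq _ => ?_)
    have hiff : (pq.1 * pq.1 = 1 ∧ pq.1 ≠ 1 ∧ pq.2 * pq.2 = 1 ∧ pq.2 ≠ 1 ∧ Z pq.1 = true ∧
        Z pq.2 = true ∧ inA1 (pq.1 * pq.2) = true) ↔
        (inA1 (pq.1 * pq.2) = true ∧ (pq.1 * pq.1 = 1 ∧ pq.1 ≠ 1 ∧ Z pq.1 = true) ∧
          (pq.2 * pq.2 = 1 ∧ pq.2 ≠ 1 ∧ Z pq.2 = true)) := by
      tauto
    rw [if_congr hiff rfl rfl]
    by_cases h3 : inA1 (pq.1 * pq.2) = true
    · by_cases h1' : pq.1 * pq.1 = 1 ∧ pq.1 ≠ 1 ∧ Z pq.1 = true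
      · by_cases h2' : pq.2 * pq.2 = 1 ∧ pq.2 ≠ 1 ∧ Z pq.2 = true
        · rw [if_pos h3, if_pos h1', if_pos h2', if_pos ⟨h3, h1', h2'⟩]
          ring
        · rw [if_pos h3, if_pos h1', if_neg h2', if_neg (fun h => h2' h.2.2)]
          ring
      · rw [if_pos h3, if_neg h1', zero_mul, if_neg (fun h => h1' h.2.1)]
        ring
    · rw [if_neg h3, if_neg (fun h => h3 h.1)]
      ring
  rw [hsum, hS2, hS1] at hTS
  have : (Nat.card G : ℂ) * ((Nat.card (Subgroup.centralizer ({z} : Set G)) : ℂ) ^ 2 *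
        ((pairCount Z : ℕ) : ℂ)) =
      (Nat.card G : ℂ) * (12 * (Nat.card G : ℂ) * (1 + E z ^ 2 / E 1 - F z ^ 2 / F 1)) := by
    rw [← hTS]
    ring
  exact mul_left_cancel₀ hG0 this

end Cfsg.Agent.Lib.Helper11.S3805
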